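import Cfsg.Agent.H419.EP.Iface
import Cfsg.Agent.Lib.Cores

/-!
# S3499: the Fitting subgroup of `A` (helper523)
-/

set_option autoImplicit false


namespace Cfsg.Agent.H523.EP

open Subgroup Cfsg.Agent.H284 Cfsg.Agent.H419.EP

section

theorem ab_nil {G : Type*} [Group G] (hc : ∀ a b : G, a * b = b * a) : Group.IsNilpotent G := by
  letI : CommGroup G := { (inferInstance : Group G) with mul_comm := hc }
  exact CommGroup.isNilpotent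

variable {Q : Type*} [Group Q] {A : Subgroup Q} {Γ : Subgroup (MulAut Q)}

/-- a characteristic subgroup of `A` is invariant under `Γ` -/
theorem char_inv (h : EPT A Γ) (K : Subgroup A) (hK : K.Characteristic) :
    ∀ σ ∈ Γ, ∀ k ∈ K.map A.subtype, σ k ∈ K.map A.subtype := by
  intro σ hσ
  have hs : ∀ a : A, σ a ∈ A := fun a => (h.inv σ hσ a).2 a.2
  have hs' : ∀ a : A, σ⁻¹ a ∈ A := fun a => (h.inv σ⁻¹ (Γ.inv_mem hσ) a).2 a.2
  let τ : A ≃* A :=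
    { toFun := fun a => ⟨σ a, hs a⟩
      invFun := fun a => ⟨σ⁻¹ a, hs' a⟩
      left_inv := fun a => Subtype.ext (MulEquiv.symm_apply_apply σ (a : Q))
      right_inv := fun a => Subtype.ext (MulEquiv.apply_symm_apply σ (a : Q))
      map_mul' := fun a b => Subtype.ext (map_mul σ _ _) }
  have hτ : K.map τ.toMonoidHom = K := Subgroup.characteristic_iff_map_eq.1 hK τ
  rintro _ ⟨k, hk, rfl⟩
  refine ⟨τ k, ?_, rfl⟩
  rw [SetLike.mem_coe, ← hτ]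
  exact ⟨k, hk, rfl⟩

/-- an element `z ≠ 1` of a nilpotent normal subgroup `N` of `A` lies in no other conjugate of `A` -/
theorem fit_kill [Finite Q] (h : EPT A Γ) {N : Subgroup Q} (hNA : N ≤ A) (hNn : ∀ a ∈ A, ∀ n ∈ N, a * n * a⁻¹ ∈ N)
    (hNil : Group.IsNilpotent N) {z x : Q} (hz : z ∈ N) (hz1 : z ≠ 1) (hx : x ∉ A) : z ∉ cj x A := by
  intro hzx
  have hN : (N.subgroupOf A).Normal := ⟨by
    rintro ⟨n, hn'⟩ hn ⟨a, ha⟩
    exact hNn a ha n hn⟩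
  have hNil' : Group.IsNilpotent (N.subgroupOf A) :=
    Group.nilpotent_of_mulEquiv (Subgroup.subgroupOfEquivOfLe hNA).symm
  have h1 : N.subgroupOf A ≤ Cfsg.fittingSubgroup A := Lib.Cores.le_fittingSubgroup hN hNil'
  have hzK : z ∈ (Cfsg.fittingSubgroup A).map A.subtype := ⟨⟨z, hNA hz⟩, h1 hz, rfl⟩
  have hKnil : Group.IsNilpotent ((Cfsg.fittingSubgroup A).map A.subtype) := by
    have := Lib.Cores.fittingSubgroup_isNilpotent (G := A)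
    exact Group.nilpotent_of_mulEquiv ((Cfsg.fittingSubgroup A).equivMapOfInjective _ A.subtype_injective)
  have h2 := h.nilp ((Cfsg.fittingSubgroup A).map A.subtype) (Subgroup.map_subtype_le _)
    (char_inv h _ Lib.Cores.fittingSubgroup_characteristic) hKnil ?_
  · have h3 := (h2.2.2.2.1 x hx).1
    apply hz1
    rw [← Subgroup.mem_bot, ← h3]
    exact ⟨hzK, hzx⟩
  · intro e
    rw [e, Subgroup.mem_bot] at hzK
    exact hz1 hzK

end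

section model

variable {Q : Type*} [Group Q] [Finite Q] {A : Subgroup Q} {Γ : Subgroup (MulAut Q)} (h : EPT A Γ)
variable {ι : Type} [Fintype ι] [DecidableEq ι] {F : Type*} [Field F] {S : Subgroup (GL ι F)} (m : Model Q S)

include h

/-- an abelian normal subgroup `R` of `Â`, `z ∈ R` not scalar : `z` lies in no other conjugate of `Â` -/
theorem fit_kill_hat {R : Subgroup (GL ι F)} (hRA : R ≤ m.hat A) (hRn : ∀ a ∈ m.hat A, ∀ n ∈ R, a * n * a⁻¹ ∈ R)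
    (hRab : ∀ a ∈ R, ∀ b ∈ R, a * b = b * a) {z x : GL ι F} (hz : z ∈ R) (hz1 : z ∉ Cfsg.Geo.scalars ι F)
    (hxS : x ∈ S) (hx : x ∉ m.hat A) : x⁻¹ * z * x ∉ m.hat A := by
  intro hzx
  have hRS : R ≤ S := hRA.trans (m.hat_le A)
  have hx' : m.π ⟨x, hxS⟩ ∉ A := fun e => hx ((m.mem_hat_iff ⟨x, hxS⟩).2 e)
  refine fit_kill h (N := (R.subgroupOf S).map m.π) ?_ ?_ ?_ (z := m.π ⟨z, hRS hz⟩) (x := m.π ⟨x, hxS⟩) ?_ ?_ hx' ?_
  · rintro _ ⟨r, hr, rfl⟩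
    exact (m.mem_hat_iff r).1 (hRA hr)
  · rintro a ha _ ⟨r, hr, rfl⟩
    obtain ⟨s, rfl⟩ := m.surj a
    refine ⟨s * r * s⁻¹, hRn s ((m.mem_hat_iff s).2 ha) r hr, ?_⟩
    rw [map_mul, map_mul, map_inv]
  · have hc : IsMulCommutative ((R.subgroupOf S).map m.π) := ⟨⟨by
      rintro ⟨_, r, hr, rfl⟩ ⟨_, t, ht, rfl⟩
      apply Subtype.ext
      show m.π r * m.π t = m.π t * m.π r
      rw [← map_mul, ← map_mul]
      congr 1
      exact Subtype.ext (hRab r hr t ht)⟩⟩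
    exact ab_nil hc.is_comm.comm
  · exact ⟨⟨z, hRS hz⟩, hz, rfl⟩
  · intro e
    exact hz1 ((m.ker _).1 e)
  · obtain ⟨hg, h1⟩ := m.mem_hat.1 hzx
    have e : (⟨x⁻¹ * z * x, hg⟩ : S) = ⟨x, hxS⟩⁻¹ * ⟨z, hRS hz⟩ * ⟨x, hxS⟩ := rfl
    rw [e, map_mul, map_mul, map_inv] at h1
    rw [mem_cj]
    exact h1

/-- **(F3)** for the whole two point stabiliser: an element of `Â` normalising `Â ∩ Â^x` lies in `Â^x` -/
theorem norm_hat {x g : GL ι F} (hxS : x ∈ S) (hx : x ∉ m.hat A) (hg : g ∈ m.hat A)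
    (hgK : ∀ k ∈ m.hat A, x⁻¹ * k * x ∈ m.hat A → x⁻¹ * (g * k * g⁻¹) * x ∈ m.hat A) : x⁻¹ * g * x ∈ m.hat A := by
  have hx' : m.π ⟨x, hxS⟩ ∉ A := fun e => hx ((m.mem_hat_iff ⟨x, hxS⟩).2 e)
  obtain ⟨hgS, hgA⟩ := m.mem_hat.1 hg
  have h1 := h.norm_aut hx' (K := A ⊓ cj (m.π ⟨x, hxS⟩) A) le_rfl (fun σ hσ => hσ) (h.M0 _ hx') hgA ?_
  · rw [mem_cj] at h1
    refine m.mem_hat.2 ⟨S.mul_mem (S.mul_mem (S.inv_mem hxS) hgS) hxS, ?_⟩
    have e : (⟨x⁻¹ * g * x, S.mul_mem (S.mul_mem (S.inv_mem hxS) hgS) hxS⟩ : S) = ⟨x, hxS⟩⁻¹ * ⟨g, hgS⟩ * ⟨x, hxS⟩ :=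
      rfl
    rw [e, map_mul, map_mul, map_inv]
    exact h1
  · rintro k ⟨hk1, hk2⟩
    obtain ⟨⟨s, hs⟩, rfl⟩ := m.surj k
    refine ⟨A.mul_mem (A.mul_mem hgA hk1) (A.inv_mem hgA), ?_⟩
    have hk2' := mem_cj.1 hk2
    refine mem_cj.2 ?_
    have hsA : s ∈ m.hat A := m.mem_hat.2 ⟨hs, hk1⟩
    have hxs : x⁻¹ * s * x ∈ m.hat A := by
      refine m.mem_hat.2 ⟨S.mul_mem (S.mul_mem (S.inv_mem hxS) hs) hxS, ?_⟩
      have e : (⟨x⁻¹ * s * x, S.mul_mem (S.mul_mem (S.inv_mem hxS) hs) hxS⟩ : S) = ⟨x, hxS⟩⁻¹ * ⟨s, hs⟩ * ⟨x, hxS⟩ :=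
        rfl
      rw [e, map_mul, map_mul, map_inv]
      exact hk2'
    obtain ⟨h4, h3⟩ := m.mem_hat.1 (hgK s hsA hxs)
    have e : (⟨x⁻¹ * (g * s * g⁻¹) * x, h4⟩ : S) = ⟨x, hxS⟩⁻¹ * (⟨g, hgS⟩ * ⟨s, hs⟩ * ⟨g, hgS⟩⁻¹) * ⟨x, hxS⟩ := rfl
    rw [e, map_mul, map_mul, map_mul, map_mul, map_inv, map_inv] at h3
    exact h3

omit [Finite Q] in
/-- maximality: a proper subgroup of `S` containing `Â` is `Â` -/
theorem eq_of_le {M : Subgroup (GL ι F)} (hAM : m.hat A ≤ M) (hMS : M ≤ S) (hne : ∃ s ∈ S, s ∉ M) : m.hat A = M := by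
  rcases (m.isMaximalIn h.max).2 M hAM hMS with h1 | h1
  · exact h1.symm
  · obtain ⟨s, hs, hsM⟩ := hne
    rw [h1] at hsM
    exact absurd hs hsM

end model

end Cfsg.Agent.H523.EP
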