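import Cfsg.Agent.H523.EP.Fit
import Cfsg.Agent.H876.SpGen
import Cfsg.Agent.H886.Basic

/-!
# S3499, symplectic groups, the reducible class (helper523)

`sp_iso`: `Â` stabilises a totally isotropic subspace; `sp_nd`: `Â` stabilises a nondegenerate subspace.
-/

set_option autoImplicit false


namespace Cfsg.Agent.H523.EP

open Subgroup Cfsg Cfsg.Geo Cfsg.Agent.H284 Cfsg.Agent.H419.EP Cfsg.Agent.ClassicalGeometry.SympBasic
open scoped Matrix MatrixGroups

section lin

variable {F : Type*} [Field F] {k : ℕ}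

/-- the action of `GL` on vectors -/
abbrev ac {ι : Type} [Fintype ι] [DecidableEq ι] (g : GL ι F) (v : ι → F) : ι → F := (g : Matrix ι ι F) *ᵥ v

section gen

variable {ι : Type} [Fintype ι] [DecidableEq ι]

theorem ac_mul (g h : GL ι F) (v : ι → F) : ac (g * h) v = ac g (ac h v) := by
  rw [ac, ac, ac, Matrix.mulVec_mulVec, Units.val_mul]

theorem ac_one (v : ι → F) : ac (1 : GL ι F) v = v := by
  rw [ac, Units.val_one, Matrix.one_mulVec]

theorem ac_inv_ac (g : GL ι F) (v : ι → F) : ac g⁻¹ (ac g v) = v := by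
  rw [← ac_mul, inv_mul_cancel, ac_one]

theorem ac_ac_inv (g : GL ι F) (v : ι → F) : ac g (ac g⁻¹ v) = v := by
  rw [← ac_mul, mul_inv_cancel, ac_one]

theorem ac_add (g : GL ι F) (v w : ι → F) : ac g (v + w) = ac g v + ac g w := Matrix.mulVec_add _ _ _

theorem ac_sub (g : GL ι F) (v w : ι → F) : ac g (v - w) = ac g v - ac g w := Matrix.mulVec_sub _ _ _

theorem ac_smul (g : GL ι F) (c : F) (v : ι → F) : ac g (c • v) = c • ac g v := Matrix.mulVec_smul _ _ _

theorem ac_ext {g h : GL ι F} (e : ∀ v, ac g v = ac h v) : g = h := by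
  apply Units.ext
  exact Matrix.mulVec_injective (funext e)

theorem mem_st {W : Submodule F (ι → F)} {g : GL ι F} : g ∈ subspaceStabilizer W ↔ ∀ v, v ∈ W ↔ ac g v ∈ W := Iff.rfl

theorem st_ac {W : Submodule F (ι → F)} {g : GL ι F} (hg : g ∈ subspaceStabilizer W) {v : ι → F} (hv : v ∈ W) :
    ac g v ∈ W := (mem_st.1 hg v).1 hv

theorem ac_zero (g : GL ι F) : ac g (0 : ι → F) = 0 := Matrix.mulVec_zero _

end gen

theorem ac_f {g : GL (Fin k ⊕ Fin k) F} (hg : g ∈ spGL k F) (u v : Fin k ⊕ Fin k → F) :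
    sympForm k F (ac g u) (ac g v) = sympForm k F u v := hg u v

theorem ac_f_inv {g : GL (Fin k ⊕ Fin k) F} (hg : g ∈ spGL k F) (u v : Fin k ⊕ Fin k → F) :
    sympForm k F (ac g⁻¹ u) v = sympForm k F u (ac g v) := by
  have h := ac_f hg (ac g⁻¹ u) v
  rw [ac_ac_inv] at h
  exact h.symm

/-- the transvection as an element of `GL` -/
noncomputable abbrev tv (v : Fin k ⊕ Fin k → F) (c : F) : GL (Fin k ⊕ Fin k) F := H876.tGL v c

theorem tv_ac (v u : Fin k ⊕ Fin k → F) (c : F) : ac (tv v c) u = u + (c * sympForm k F u v) • v :=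
  H876.tGL_mulVec v u c

theorem tv_mem (v : Fin k ⊕ Fin k → F) (c : F) : tv v c ∈ spGL k F := H876.tGL_mem v c

theorem tv_inv (v : Fin k ⊕ Fin k → F) (c : F) : (tv v c)⁻¹ = tv v (-c) := by
  rw [inv_eq_iff_mul_eq_one]
  apply ac_ext
  intro u
  rw [ac_mul, ac_one, tv_ac, tv_ac, sympForm_add_left, sympForm_smul_left, sympForm_self]
  module

/-- conjugation of a transvection -/
theorem conj_tv {g : GL (Fin k ⊕ Fin k) F} (hg : g ∈ spGL k F) (v : Fin k ⊕ Fin k → F) (c : F) :
    g⁻¹ * tv v c * g = tv (ac g⁻¹ v) c := by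
  apply ac_ext
  intro u
  rw [ac_mul, ac_mul, tv_ac, tv_ac, ac_add, ac_inv_ac, ac_smul]
  congr 3
  have h := ac_f hg u (ac g⁻¹ v)
  rw [ac_ac_inv] at h
  exact h

theorem tv_not_scalar {v : Fin k ⊕ Fin k → F} (hv : v ≠ 0) {c : F} (hc : c ≠ 0) :
    tv v c ∉ scalars (Fin k ⊕ Fin k) F := by
  intro h
  obtain ⟨a, ha⟩ := (mem_scalars_iff _).1 h
  have h1 : ∀ u, ac (tv v c) u = (a : F) • u := by
    intro u
    show ((tv v c : GL (Fin k ⊕ Fin k) F) : Matrix (Fin k ⊕ Fin k) (Fin k ⊕ Fin k) F) *ᵥ u = _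
    rw [ha, Matrix.smul_mulVec, Matrix.one_mulVec]
  have h2 := h1 v
  rw [tv_ac, sympForm_self, mul_zero, zero_smul, add_zero] at h2
  have h3 : (a : F) = 1 := by
    by_contra hne
    have h4 : ((a : F) - 1) • v = 0 := by rw [sub_smul, one_smul, ← h2, sub_self]
    rcases smul_eq_zero.1 h4 with h5 | h5
    · exact hne (sub_eq_zero.1 h5)
    · exact hv h5
  apply hv
  apply eq_zero_of_forall_sympForm_left
  intro u
  have h4 := h1 u
  rw [tv_ac, h3, one_smul, add_eq_left] at h4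
  rcases smul_eq_zero.1 h4 with h5 | h5
  · exact (mul_eq_zero.1 h5).resolve_left hc
  · exact absurd h5 hv

/-- a transvection which moves `W` -/
theorem tv_notMem {W : Submodule F (Fin k ⊕ Fin k → F)} {u w : Fin k ⊕ Fin k → F} (hu : u ∉ W) (hw : w ∈ W)
    (hwu : sympForm k F w u ≠ 0) : tv u 1 ∉ subspaceStabilizer W := by
  intro h
  have h1 := st_ac h hw
  rw [tv_ac, one_mul] at h1
  have h2 := (Submodule.add_mem_iff_right W hw).1 h1
  exact hu ((Submodule.smul_mem_iff W hwu).1 h2)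

/-- `w ∉ ⟨v⟩`: some `u` is orthogonal to `v` and not to `w` -/
theorem exists_sep {v w : Fin k ⊕ Fin k → F} (hv : v ≠ 0) (hw : ∀ c : F, w ≠ c • v) :
    ∃ u, sympForm k F v u = 0 ∧ sympForm k F w u ≠ 0 := by
  by_contra hcon
  push Not at hcon
  obtain ⟨a, ha⟩ : ∃ a, sympForm k F v a ≠ 0 := by
    by_contra h
    push Not at h
    exact hv (eq_zero_of_forall_sympForm_right h)
  apply hw (sympForm k F w a / sympForm k F v a)
  rw [← sub_eq_zero]
  apply eq_zero_of_forall_sympForm_right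
  intro y
  have h1 := hcon (y - (sympForm k F v y / sympForm k F v a) • a) (by
    rw [sympForm_sub_right, sympForm_smul_right]
    field_simp
    ring)
  rw [sympForm_sub_right, sympForm_smul_right, sub_eq_zero] at h1
  rw [sympForm_sub_left, sympForm_smul_left, h1]
  field_simp
  ring

/-- a vector orthogonal to `v`, not in `⟨v⟩` -/
theorem exists_perp (hk : 2 ≤ k) {v : Fin k ⊕ Fin k → F} (hv : v ≠ 0) :
    ∃ u, u ≠ 0 ∧ sympForm k F v u = 0 ∧ ∀ c : F, u ≠ c • v := by
  by_contra hcon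
  push Not at hcon
  obtain ⟨a, ha⟩ : ∃ a, sympForm k F v a ≠ 0 := by
    by_contra h
    push Not at h
    exact hv (eq_zero_of_forall_sympForm_right h)
  have h1 : (⊤ : Submodule F (Fin k ⊕ Fin k → F)) ≤ Submodule.span F {a, v} := by
    intro y _
    rw [Submodule.mem_span_pair]
    by_cases h0 : y - (sympForm k F v y / sympForm k F v a) • a = 0
    · refine ⟨sympForm k F v y / sympForm k F v a, 0, ?_⟩
      rw [zero_smul, add_zero]
      exact (sub_eq_zero.1 h0).symm
    · obtain ⟨c, hc⟩ := hcon _ h0 (by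
        rw [sympForm_sub_right, sympForm_smul_right]
        field_simp
        ring)
      exact ⟨_, c, by rw [← hc, add_sub_cancel]⟩
  have h2 := Submodule.finrank_mono h1
  rw [finrank_top, Module.finrank_fintype_fun_eq_card, Fintype.card_sum, Fintype.card_fin] at h2
  have h3 : Module.finrank F (Submodule.span F {a, v}) ≤ 2 := by
    classical
    have := finrank_span_finset_le_card (R := F) ({a, v} : Finset (Fin k ⊕ Fin k → F))
    rw [Finset.coe_insert, Finset.coe_singleton] at this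
    exact this.trans Finset.card_le_two
  omega

end lin

section rows

variable {Q : Type*} [Group Q] [Finite Q] {A : Subgroup Q} {Γ : Subgroup (MulAut Q)} (h : EPT A Γ)
variable {F : Type*} [Field F] {k : ℕ} (m : Model Q (spGL k F))

include h

/-- **`Â` stabilises a totally isotropic subspace** -/
theorem sp_iso (hk : 2 ≤ k) {W : Submodule F (Fin k ⊕ Fin k → F)} (hW : W ≠ ⊥)
    (hWs : IsTotallySingularFor (sympForm k F) W) (hA : m.hat A ≤ subspaceStabilizer W) : False := by
  obtain ⟨v, hv, hv0⟩ := Submodule.exists_mem_ne_zero_of_ne_bot hW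
  -- `Â` is the whole stabiliser
  obtain ⟨a, ha⟩ : ∃ a, sympForm k F v a ≠ 0 := by
    by_contra hcon
    push Not at hcon
    exact hv0 (eq_zero_of_forall_sympForm_right hcon)
  have hmv : ∀ u : Fin k ⊕ Fin k → F, (∃ w ∈ W, sympForm k F w u ≠ 0) → tv u 1 ∉ subspaceStabilizer W := by
    rintro u ⟨w, hw, hwu⟩
    exact tv_notMem (fun hu => hwu (hWs w hw u hu)) hw hwu
  have hAe : m.hat A = subspaceStabilizer W ⊓ spGL k F :=
    eq_of_le h m (le_inf hA (m.hat_le A)) inf_le_right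
      ⟨tv a 1, tv_mem a 1, fun hh => hmv a ⟨v, hv, ha⟩ hh.1⟩
  -- the abelian normal subgroup
  let R : Subgroup (GL (Fin k ⊕ Fin k) F) :=
    { carrier := {g | g ∈ spGL k F ∧ (∀ x, ac g x - x ∈ W) ∧ ∀ w ∈ W, ac g w = w}
      one_mem' := ⟨one_mem _, fun x => by rw [ac_one, sub_self]; exact W.zero_mem, fun w _ => ac_one w⟩
      mul_mem' := by
        rintro g g' ⟨h1, h2, h3⟩ ⟨h1', h2', h3'⟩
        refine ⟨mul_mem h1 h1', fun x => ?_, fun w hw => by rw [ac_mul, h3' w hw, h3 w hw]⟩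
        rw [ac_mul]
        have e : ac g (ac g' x) - x = (ac g (ac g' x) - ac g' x) + (ac g' x - x) := by abel
        rw [e]
        exact W.add_mem (h2 _) (h2' x)
      inv_mem' := by
        rintro g ⟨h1, h2, h3⟩
        refine ⟨inv_mem h1, fun x => ?_, fun w hw => ?_⟩
        · have h4 := h2 (ac g⁻¹ x)
          rw [ac_ac_inv] at h4
          have e : ac g⁻¹ x - x = -(x - ac g⁻¹ x) := by abel
          rw [e]
          exact W.neg_mem h4
        · conv_lhs => rw [← h3 w hw]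
          exact ac_inv_ac g w }
  have hRm : ∀ g, g ∈ R ↔ g ∈ spGL k F ∧ (∀ x, ac g x - x ∈ W) ∧ ∀ w ∈ W, ac g w = w := fun g => Iff.rfl
  have hRA : R ≤ m.hat A := by
    intro g hg
    obtain ⟨h1, h2, h3⟩ := (hRm g).1 hg
    rw [hAe]
    refine ⟨mem_st.2 fun x => ?_, h1⟩
    have e : ac g x = (ac g x - x) + x := by abel
    rw [e]
    exact (Submodule.add_mem_iff_right W (h2 x)).symm
  have hRn : ∀ b ∈ m.hat A, ∀ n ∈ R, b * n * b⁻¹ ∈ R := by
    intro b hb n hn
    rw [hAe] at hb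
    obtain ⟨hb1, hb2⟩ := mem_inf.1 hb
    have hb3 := (subspaceStabilizer W).inv_mem hb1
    obtain ⟨h1, h2, h3⟩ := (hRm n).1 hn
    refine (hRm _).2 ⟨mul_mem (mul_mem hb2 h1) (inv_mem hb2), fun x => ?_, fun w hw => ?_⟩
    · rw [ac_mul, ac_mul]
      have e : ac b (ac n (ac b⁻¹ x)) - x = ac b (ac n (ac b⁻¹ x) - ac b⁻¹ x) := by rw [ac_sub, ac_ac_inv]
      rw [e]
      exact st_ac hb1 (h2 _)
    · rw [ac_mul, ac_mul, h3 _ (st_ac hb3 hw), ac_ac_inv]
  have hRab : ∀ b ∈ R, ∀ c ∈ R, b * c = c * b := by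
    intro b hb c hc
    obtain ⟨-, h2, h3⟩ := (hRm b).1 hb
    obtain ⟨-, h2', h3'⟩ := (hRm c).1 hc
    apply ac_ext
    intro x
    rw [ac_mul, ac_mul]
    have e1 : ac b (ac c x) = (ac c x - x) + ac b x := by
      rw [← h3 _ (h2' x), ← ac_add]
      congr 1
      abel
    have e2 : ac c (ac b x) = (ac b x - x) + ac c x := by
      rw [← h3' _ (h2 x), ← ac_add]
      congr 1
      abel
    rw [e1, e2]
    abel
  have hz : tv v 1 ∈ R := by
    refine (hRm _).2 ⟨tv_mem v 1, fun x => ?_, fun w hw => ?_⟩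
    · rw [tv_ac, add_sub_cancel_left]
      exact W.smul_mem _ hv
    · rw [tv_ac, hWs w hw v hv, mul_zero, zero_smul, add_zero]
  have key : ∀ x ∈ spGL k F, x ∉ subspaceStabilizer W → x⁻¹ * tv v 1 * x ∉ subspaceStabilizer W := by
    intro x hxS hx hcon
    refine fit_kill_hat h m hRA hRn hRab hz (tv_not_scalar hv0 one_ne_zero) hxS (fun hh => hx (hA hh)) ?_
    rw [hAe]
    exact ⟨hcon, (spGL k F).mul_mem ((spGL k F).mul_mem ((spGL k F).inv_mem hxS) (tv_mem v 1)) hxS⟩
  by_cases h2 : ∀ w ∈ W, ∃ c : F, w = c • v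
  · -- `W = ⟨v⟩`
    obtain ⟨u, hu0, hu1, hu2⟩ := exists_perp hk hv0
    obtain ⟨B, -, hB⟩ := exists_transvGroup_mulVec_eq (m := k) hu0 hv0
    have hx : H876.spToGL k F B ∈ spGL k F := fun a b => mem_symplecticGroup_iff.1 B.2 a b
    have hxu : ac (H876.spToGL k F B) u = v := hB
    have hxv : ac (H876.spToGL k F B)⁻¹ v = u := by rw [← hxu, ac_inv_ac]
    refine key _ hx (fun hh => ?_) ?_
    · have h3 := (mem_st.1 hh u).2 (by rw [hxu]; exact hv)
      obtain ⟨c, hc⟩ := h2 u h3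
      exact hu2 c hc
    · rw [conj_tv hx, hxv]
      refine mem_st.2 fun y => ?_
      have hWu : ∀ w ∈ W, sympForm k F w u = 0 := by
        intro w hw
        obtain ⟨c, rfl⟩ := h2 w hw
        rw [sympForm_smul_left, hu1, mul_zero]
      constructor
      · intro hy
        rw [tv_ac, hWu y hy, mul_zero, zero_smul, add_zero]
        exact hy
      · intro hy
        have h3 := hWu _ hy
        rw [tv_ac, sympForm_add_left, sympForm_smul_left, sympForm_self, mul_zero, add_zero] at h3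
        rwa [tv_ac, h3, mul_zero, zero_smul, add_zero] at hy
  · push Not at h2
    obtain ⟨w, hw, hwv⟩ := h2
    obtain ⟨u, hu1, hu2⟩ := exists_sep hv0 hwv
    refine key (tv u 1) (tv_mem u 1) (hmv u ⟨w, hw, hu2⟩) ?_
    rw [conj_tv (tv_mem u 1), tv_inv, tv_ac, hu1, mul_zero, zero_smul, add_zero]
    exact (mem_inf.1 (hAe ▸ hRA hz)).1

/-- **`Â` stabilises a nondegenerate subspace** -/
theorem sp_nd [Fintype F] (hF : 3 ≤ Fintype.card F) {W : Submodule F (Fin k ⊕ Fin k → F)} (hW : W ≠ ⊥)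
    (hWn : IsNondegenerateOn (sympForm k F) W) (hWk : Module.finrank F W < k)
    (hA : m.hat A ≤ subspaceStabilizer W) : False := by
  classical
  obtain ⟨w1, hw1, hw10⟩ := Submodule.exists_mem_ne_zero_of_ne_bot hW
  obtain ⟨⟨w0, hw0, hw01⟩, -⟩ := hWn w1 hw1 hw10
  -- a vector orthogonal to `W`
  obtain ⟨w2, hw20, hw2⟩ : ∃ w2 : Fin k ⊕ Fin k → F, w2 ≠ 0 ∧ ∀ w ∈ W, sympForm k F w w2 = 0 := by
    let φ : (Fin k ⊕ Fin k → F) →ₗ[F] (W →ₗ[F] F) :=
      { toFun := fun y => ((sympBilin k F).flip y).comp W.subtype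
        map_add' := fun y z => by ext w; simp
        map_smul' := fun c y => by ext w; simp }
    have h1 : ¬ Function.Injective φ := by
      intro hi
      have h2 := LinearMap.finrank_le_finrank_of_injective hi
      rw [Module.finrank_fintype_fun_eq_card, Fintype.card_sum, Fintype.card_fin] at h2
      have h3 : Module.finrank F (W →ₗ[F] F) = Module.finrank F W := by
        rw [Module.finrank_linearMap, Module.finrank_self, mul_one]
      omega
    rw [← LinearMap.ker_eq_bot, Submodule.eq_bot_iff] at h1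
    push Not at h1
    obtain ⟨y, hy, hy0⟩ := h1
    refine ⟨y, hy0, fun w hw => ?_⟩
    have h2 := LinearMap.congr_fun (LinearMap.mem_ker.1 hy) ⟨w, hw⟩
    simpa [φ] using h2
  have hw2W : ∀ c : F, c • w2 ∈ W → c • w2 = 0 := by
    intro c hc
    by_contra hne
    obtain ⟨⟨x, hx, hxc⟩, -⟩ := hWn _ hc hne
    apply hxc
    rw [sympForm_smul_right, hw2 x hx, mul_zero]
  have hw2' : w2 ∉ W := fun hh => hw20 (by simpa using hw2W 1 (by simpa using hh))
  have hswap : ∀ w ∈ W, sympForm k F w2 w = 0 := fun w hw => by rw [sympForm_swap, hw2 w hw, neg_zero]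
  -- the element `x`
  set u := w1 + w2 with hu
  have huW : u ∉ W := fun hh => hw2' ((Submodule.add_mem_iff_right W hw1).1 hh)
  have hfu : ∀ w ∈ W, sympForm k F w u = sympForm k F w w1 := fun w hw => by
    rw [hu, sympForm_add_right, hw2 w hw, add_zero]
  have hxW : tv u 1 ∉ subspaceStabilizer W := tv_notMem huW hw0 (by rw [hfu w0 hw0]; exact hw01)
  have hAe : m.hat A = subspaceStabilizer W ⊓ spGL k F :=
    eq_of_le h m (le_inf hA (m.hat_le A)) inf_le_right ⟨tv u 1, tv_mem u 1, fun hh => hxW hh.1⟩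
  -- the element `g`
  obtain ⟨μ, hμ0, hμ1⟩ : ∃ μ : F, μ ≠ 0 ∧ μ ≠ 1 := by
    by_contra hcon
    push Not at hcon
    have h1 : (Finset.univ : Finset F) ⊆ {0, 1} := by
      intro a _
      by_cases ha : a = 0
      · simp [ha]
      · simp [hcon a ha]
    have h2 := Finset.card_le_card h1
    have h3 : ({0, 1} : Finset F).card ≤ 2 := Finset.card_le_two
    rw [Finset.card_univ] at h2
    omega
  have hf10 : sympForm k F w1 w0 ≠ 0 := by rw [sympForm_swap]; exact neg_ne_zero.2 hw01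
  have hf01 : sympForm k F w0 (μ • w1) ≠ 0 := by rw [sympForm_smul_right]; exact mul_ne_zero hμ0 hw01
  obtain ⟨g, hg⟩ : ∃ g : GL (Fin k ⊕ Fin k) F, g = tv (μ • w1 - w0) (sympForm k F w0 (μ • w1))⁻¹ *
      tv (w0 - w1) (sympForm k F w1 w0)⁻¹ := ⟨_, rfl⟩
  have htW : ∀ (y : Fin k ⊕ Fin k → F) (c : F), y ∈ W → tv y c ∈ subspaceStabilizer W := by
    intro y c hy
    refine mem_st.2 fun z => ?_
    rw [tv_ac]
    exact (Submodule.add_mem_iff_left W (W.smul_mem _ hy)).symm
  have hgS : g ∈ spGL k F := by rw [hg]; exact (spGL k F).mul_mem (tv_mem _ _) (tv_mem _ _)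
  have hgW : g ∈ subspaceStabilizer W := by
    rw [hg]
    exact (subspaceStabilizer W).mul_mem (htW _ _ (W.sub_mem (W.smul_mem _ hw1) hw0)) (htW _ _ (W.sub_mem hw0 hw1))
  have hg1 : ac g w1 = μ • w1 := by
    rw [hg, ac_mul]
    have e1 : ac (tv (w0 - w1) (sympForm k F w1 w0)⁻¹) w1 = w0 := transv_sub_mulVec hf10
    have e2 : ac (tv (μ • w1 - w0) (sympForm k F w0 (μ • w1))⁻¹) w0 = μ • w1 := transv_sub_mulVec hf01
    rw [e1, e2]
  have htf : ∀ (y : Fin k ⊕ Fin k → F) (c : F), y ∈ W → ac (tv y c) w2 = w2 := by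
    intro y c hy
    rw [tv_ac, hswap y hy, mul_zero, zero_smul, add_zero]
  have hg2 : ac g w2 = w2 := by
    rw [hg, ac_mul, htf _ _ (W.sub_mem hw0 hw1), htf _ _ (W.sub_mem (W.smul_mem _ hw1) hw0)]
  -- the two point stabiliser
  have hperp : ∀ b : GL (Fin k ⊕ Fin k) F, b ∈ spGL k F → b ∈ subspaceStabilizer W → ∀ w ∈ W,
      sympForm k F w (ac b w2) = 0 := by
    intro b hb hbW w hw
    have h1 := ac_f hb (ac b⁻¹ w) w2
    rw [ac_ac_inv] at h1
    rw [h1]
    exact hw2 _ (st_ac ((subspaceStabilizer W).inv_mem hbW) hw)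
  have hdec : ∀ a b : Fin k ⊕ Fin k → F, a ∈ W → (∀ w ∈ W, sympForm k F w b = 0) → a + b ∈ W → b = 0 := by
    intro a b ha hb hab
    have h1 : b ∈ W := (Submodule.add_mem_iff_right W ha).1 hab
    by_contra hne
    obtain ⟨⟨x, hx, hxc⟩, -⟩ := hWn b h1 hne
    exact hxc (hb x hx)
  have key : ∀ b ∈ m.hat A, ((tv u 1)⁻¹ * b * tv u 1 ∈ m.hat A ↔
      ∀ w ∈ W, sympForm k F w w1 • ac b w2 = sympForm k F (ac b w) w1 • w2) := by
    intro b hb
    rw [hAe] at hb
    obtain ⟨hb1, hb2⟩ := mem_inf.1 hb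
    have hb2' : b ∈ spGL k F := hb2
    have hpb := hperp b hb2' hb1
    -- the image of `w`
    have himg : ∀ w ∈ W, ac ((tv u 1)⁻¹ * b * tv u 1) w =
        (ac b w + sympForm k F w w1 • ac b w1 - sympForm k F (ac b (ac (tv u 1) w)) u • w1) +
        (sympForm k F w w1 • ac b w2 - sympForm k F (ac b (ac (tv u 1) w)) u • w2) := by
      intro w hw
      rw [ac_mul, ac_mul, tv_inv, tv_ac]
      have e : ac b (ac (tv u 1) w) = ac b w + sympForm k F w w1 • (ac b w1 + ac b w2) := by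
        rw [tv_ac, ac_add, ac_smul, one_mul, hfu w hw, hu, ac_add]
      generalize sympForm k F (ac b (ac (tv u 1) w)) u = s
      rw [e, hu]
      module
    have hval : ∀ w ∈ W, sympForm k F (ac b (ac (tv u 1) w)) u = sympForm k F (ac b w) w1 +
        sympForm k F w w1 * (sympForm k F (ac b w1) w1 + sympForm k F (ac b w2) w2) := by
      intro w hw
      have e : ac b (ac (tv u 1) w) = ac b w + sympForm k F w w1 • (ac b w1 + ac b w2) := by
        rw [tv_ac, ac_add, ac_smul, one_mul, hfu w hw, hu, ac_add]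
      rw [e, sympForm_add_left, sympForm_smul_left, sympForm_add_left, hfu _ (st_ac hb1 hw), hfu _ (st_ac hb1 hw1), hu,
        sympForm_add_right (ac b w2)]
      have h1 : sympForm k F (ac b w2) w1 = 0 := by rw [sympForm_swap, hpb w1 hw1, neg_zero]
      rw [h1, zero_add]
    have hiff : (tv u 1)⁻¹ * b * tv u 1 ∈ m.hat A ↔
        ∀ w ∈ W, sympForm k F w w1 • ac b w2 - sympForm k F (ac b (ac (tv u 1) w)) u • w2 = 0 := by
      constructor
      · intro hh w hw
        rw [hAe] at hh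
        have h1 := st_ac (mem_inf.1 hh).1 hw
        rw [himg w hw] at h1
        refine hdec _ _ ?_ ?_ h1
        · exact W.sub_mem (W.add_mem (st_ac hb1 hw) (W.smul_mem _ (st_ac hb1 hw1))) (W.smul_mem _ hw1)
        · intro w' hw'
          rw [sympForm_sub_right, sympForm_smul_right, sympForm_smul_right, hpb w' hw', hw2 w' hw']
          ring
      · intro hh
        rw [hAe]
        refine ⟨?_, (spGL k F).mul_mem ((spGL k F).mul_mem ((spGL k F).inv_mem (tv_mem u 1)) hb2') (tv_mem u 1)⟩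
        refine H886.mem_stabilizing_of_forward _ _ fun w hw => ?_
        show ac ((tv u 1)⁻¹ * b * tv u 1) w ∈ W
        rw [himg w hw, hh w hw, add_zero]
        exact W.sub_mem (W.add_mem (st_ac hb1 hw) (W.smul_mem _ (st_ac hb1 hw1))) (W.smul_mem _ hw1)
    rw [hiff]
    constructor
    · intro hh
      -- `b w2` is a multiple of `w2`
      have h1 : sympForm k F (ac b w2) w2 = 0 := by
        have h2 := hh w0 hw0
        rw [sub_eq_zero] at h2
        have h3 : sympForm k F (sympForm k F w0 w1 • ac b w2) w2 = 0 := by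
          rw [h2, sympForm_smul_left, sympForm_self, mul_zero]
        rw [sympForm_smul_left] at h3
        exact (mul_eq_zero.1 h3).resolve_left hw01
      have h4 : sympForm k F (ac b w1) w1 = 0 := by
        have h2 := hh w1 hw1
        rw [hval w1 hw1, sympForm_self, zero_smul, zero_mul, add_zero, zero_sub, neg_eq_zero] at h2
        exact (smul_eq_zero.1 h2).resolve_right hw20
      intro w hw
      have h2 := hh w hw
      rw [hval w hw, h1, h4, add_zero, mul_zero, add_zero] at h2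
      exact sub_eq_zero.1 h2
    · intro hh
      have h1 : sympForm k F (ac b w2) w2 = 0 := by
        have h2 := hh w0 hw0
        have h3 : sympForm k F (sympForm k F w0 w1 • ac b w2) w2 = 0 := by
          rw [h2, sympForm_smul_left, sympForm_self, mul_zero]
        rw [sympForm_smul_left] at h3
        exact (mul_eq_zero.1 h3).resolve_left hw01
      have h4 : sympForm k F (ac b w1) w1 = 0 := by
        have h2 := hh w1 hw1
        rw [sympForm_self, zero_smul] at h2
        exact (smul_eq_zero.1 h2.symm).resolve_right hw20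
      intro w hw
      rw [hval w hw, h1, h4, add_zero, mul_zero, add_zero, hh w hw, sub_self]
  have hgA : g ∈ m.hat A := by rw [hAe]; exact ⟨hgW, hgS⟩
  have hginv : ac g⁻¹ w1 = μ⁻¹ • w1 := by
    have h1 : ac g⁻¹ (ac g w1) = w1 := ac_inv_ac g w1
    rw [hg1, ac_smul] at h1
    have h2 : μ⁻¹ • (μ • ac g⁻¹ w1) = μ⁻¹ • w1 := by rw [h1]
    rwa [smul_smul, inv_mul_cancel₀ hμ0, one_smul] at h2
  have h1 := norm_hat h m (tv_mem u 1) (fun hh => hxW (hA hh)) hgA (fun b hb hxb => ?_)
  · rw [key g hgA] at h1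
    have h2 := h1 w0 hw0
    rw [hg2] at h2
    have h3 : sympForm k F (ac g w0) w1 = μ⁻¹ * sympForm k F w0 w1 := by
      have h4 := ac_f hgS w0 (ac g⁻¹ w1)
      rw [ac_ac_inv, hginv, sympForm_smul_right] at h4
      exact h4
    rw [h3] at h2
    have h5 : (sympForm k F w0 w1 - μ⁻¹ * sympForm k F w0 w1) • w2 = 0 := by rw [sub_smul, h2, sub_self]
    have h6 := (smul_eq_zero.1 h5).resolve_right hw20
    have h7 : sympForm k F w0 w1 * (1 - μ⁻¹) = 0 := by linear_combination h6
    have h8 := (mul_eq_zero.1 h7).resolve_left hw01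
    apply hμ1
    have h9 : μ⁻¹ = 1 := (sub_eq_zero.1 h8).symm
    exact inv_eq_one.1 h9
  · have hb' : g * b * g⁻¹ ∈ m.hat A := mul_mem (mul_mem hgA hb) (inv_mem hgA)
    rw [key b hb] at hxb
    rw [key _ hb']
    intro w hw
    have hg' : g⁻¹ ∈ subspaceStabilizer W := (subspaceStabilizer W).inv_mem hgW
    have h2 := hxb (ac g⁻¹ w) (st_ac hg' hw)
    have h3 : sympForm k F (ac g⁻¹ w) w1 = μ * sympForm k F w w1 := by
      rw [ac_f_inv hgS, hg1, sympForm_smul_right]
    have h4 : ac g⁻¹ w2 = w2 := by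
      have := ac_inv_ac g w2
      rwa [hg2] at this
    have h5 : sympForm k F (ac (g * b * g⁻¹) w) w1 = μ⁻¹ * sympForm k F (ac b (ac g⁻¹ w)) w1 := by
      rw [ac_mul, ac_mul]
      have h6 := ac_f hgS (ac b (ac g⁻¹ w)) (ac g⁻¹ w1)
      rw [ac_ac_inv, hginv, sympForm_smul_right] at h6
      exact h6
    rw [h5, ac_mul, ac_mul, h4]
    rw [h3] at h2
    have h7 := congrArg (ac g) h2
    rw [ac_smul, ac_smul, hg2] at h7
    have h8 := congrArg (fun y => μ⁻¹ • y) h7
    simp only [smul_smul] at h8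
    rw [show μ⁻¹ * (μ * sympForm k F w w1) = sympForm k F w w1 by field_simp] at h8
    exact h8

end rows

end Cfsg.Agent.H523.EP
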