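import Cfsg.Agent.H523.EP.SpC1
import Cfsg.Agent.H111.EP.SpAsm

/-!
# S3499: the rows `SpC1ts`, `SpC1nd` of `H111.EP.SpAsm` (helper523)
-/

set_option autoImplicit false

namespace Cfsg.Agent.H523.EP

open Cfsg.Agent.H111.EP

theorem spC1ts : SpC1ts := fun _ _ _ h _ _ _ _ m hk _ _ hW hWs hA => sp_iso h m hk hW hWs hA

theorem spC1nd : SpC1nd := fun _ _ _ h _ _ _ _ m _ hF _ hW hWn hWk hA => sp_nd h m hF hW hWn hWk hA

end Cfsg.Agent.H523.EP
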